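import Mathlib
import Cfsg.Agent.H428.OT.Tab
import Cfsg.Agent.H460.OT.BruConc

/-!
helper460 (S2539, part 5). Closed sets of short roots in `F₄` and `G₂` (root part).

* `Sh D S` : `S` is a closed set of short roots;
* `short_cases` : `S ∩ -S = ∅`, or `S = {±a}`, or (`F₄`) `S = {±a, c, c - a}` or `S = {±a, ±c, ±(c - a)}`;
* `anti_cases` : the sets with `S ∩ -S = ∅`;
* `fixed_anti` : if `w` preserves `pr`, `w² = 1`, `w S = S`, `S ≠ ∅`, `S ∩ -S = ∅` then `w` fixes a root not orthogonal to `S`.
-/

set_option autoImplicit false
set_option linter.unusedSectionVars false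

namespace Cfsg.Agent.H460.OT.Short

open Cfsg Cfsg.Lie Cfsg.Lie.ChevalleyDatum
open Cfsg.Agent.ChevalleyStructure Cfsg.Agent.ChevalleyStructure.Elts Cfsg.Agent.H412.OT Cfsg.Agent.H428.OT
open Cfsg.Agent.Nodes.RGDChev
open Cfsg.Agent.ChevalleyStructure.RootCombBase (allLt allLt_spec anyLt anyLt_spec ieq ieq_spec)

/-! ### linearity of the pairing -/

section Lin

variable {D : ChevalleyDatum}

theorem pr_add (hD : InList D) {r s u : ℕ} (hu : D.chainRoot r s 1 = some u) (t : ℕ) :
    pr D t u = pr D t r + pr D t s := by
  obtain ⟨l, M, hp⟩ := exists_type hD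
  obtain ⟨h1, h2, h3, -⟩ := RootVec.chainRoot_rt hp.checked (le_refl 1) hu
  exact cartanR_add hp h2 h3 h1 (by rw [(vec_of_chainRoot hp hu).2, add_comm]) t

theorem pr_neg_right (hD : InList D) {s : ℕ} (hs : s < D.nroots) (r : ℕ) : pr D r (D.neg s) = -pr D r s := by
  have h := StringMem.rootOK_of_mem hD hs
  show Strings.cartanR D r (D.neg s) = -Strings.cartanR D r s
  unfold Strings.cartanR
  rw [← Finset.sum_neg_distrib]
  exact Finset.sum_congr rfl fun i hi => by rw [h.cartan_neg i (Finset.mem_range.1 hi), mul_neg]

theorem pr_neg_left (hD : InList D) {r : ℕ} (hr : r < D.nroots) (s : ℕ) : pr D (D.neg r) s = -pr D r s := by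
  have h := StringMem.rootOK_of_mem hD hr
  show Strings.cartanR D (D.neg r) s = -Strings.cartanR D r s
  unfold Strings.cartanR
  rw [← Finset.sum_neg_distrib]
  exact Finset.sum_congr rfl fun i hi => by rw [h.co_neg i (Finset.mem_range.1 hi), neg_mul]

theorem chainRoot_lt (hD : InList D) {r s u : ℕ} (hu : D.chainRoot r s 1 = some u) :
    r < D.nroots ∧ s < D.nroots ∧ u < D.nroots := by
  obtain ⟨l, M, hp⟩ := exists_type hD
  obtain ⟨h1, h2, h3, -⟩ := RootVec.chainRoot_rt hp.checked (le_refl 1) hu
  exact ⟨h2, h3, h1⟩

end Lin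

/-! ### tables -/

def pT (M n r s : ℕ) : ℕ := Nat.land (Nat.shiftRight M (Nat.mul 3 (Nat.add (Nat.mul n r) s))) 7
def cT (M n r s : ℕ) : ℕ := Nat.land (Nat.shiftRight M (Nat.mul 6 (Nat.add (Nat.mul n r) s))) 63
def lT (M r : ℕ) : Bool := Nat.beq (Nat.land (Nat.shiftRight M r) 1) 1

def pG : ℕ := 7723515688885990903391782808035949083864339689655810381646067184441052593705512003674801994700509269719630970246284997541921175845
def cG : ℕ := 123003155721653546871231518228009244009399863830388372825932445406256916652721077920672272459222109082492901399925704247073804688095478165359628474833805272944692130108898132357252339403569204940126350315640951197043707298740520307838520252708375864702866030591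
def lG : ℕ := 3171
def pF : ℕ := 36492726481670611936146007550576792438953875311297179000027714397266428016957257350518398168376333715759456279542075117372359274228075548203341418245771274555232215604168154500626116070793596372426126488412511097926268538446382413513870872847124248330687727812598129141377280715239199539116560651012866128947665813732772595518525888787167493878841549592797872043649733619384828685230746753761648902228131258408698576227234774856824360729055885810598294909705572758675092702466671746933603120611001939505280225565798408583689934463321874556246611746593865595508470228333112572125842975506883519015240310655640352595897796833501083031248480692113825649639623942527268514923385220926627131350159094217799716217065285725092340176218754042097054363214838537077034419575515142291582466186822797118467610315739392012811677480116098950203934942606505533450222670078717085188660904394478243674969802155362482504833047935097588053374369248858765728671185711488028406556278224300669067908702418677239592038089827444715961140963318273184863705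611385377473214628928739166191846426607024008944612860268805534620535106853843090469138035291428119147205339437550037771320179239567941636597501418824596195167875913767078317294179992150141857367806557581036055413352948733362448866612313763985696827621247831436266092489002652467918114942396700636740861071363589625302599706727429308738158849018006381199497793523501981117111783151687418573089471297168451674508877378101877817879780644253855592441449486308821550490933104301772296775163415577600426932137698882764906399327065414427460104566293194291888912568062196863764262240046860841045461183964397707122183671576499220991125048848897197627619282516503180615610714066502198504458735300343992448109946101970549271472953189539964307755295326334331592808391660197060308070333408571689866032485183821405743260714949428615609455159033837402664535823455503427743237350149340199767001548695698686811499942820992897108661551150298002439951720976927302935394311402024018290633706513127071729902197571981544613416245251130393511390099421170066820371785337125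
def cF : ℕ := 274574409876781085157136437014953268948702410780069378289576543490369373942244071435164946427625462253306037226919344162876601155981232192046325927168222746627795987752744311350473785010903227273564402994280051641774184419637386112216987016523804885631095117880257708191949496125218952751201746692228639569704184141657242010809275726211150988339182638696465343451174084686913761409777668618043324439309146447292239344967748062840988476146541785794204278734118118665373899878172736974141100439690213732904914887292453696036493480997346444160188575182900988506900607507128822020501764854225844703433496519538439593749519118937744741648985426789093233579219726679397708754561902841997612048231312331152410065684301055893660915601513661482311467212894538174303492140000172387131936655457765210150855091855053199335435787841756738606899852889099730972060811461042146207223629065904428251699968827654763107000854494112955074682929882524772209825574028279682734415565597001710051465832304693681049863038054375976407111410406393515230490368364504592540208485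924544083868367001358440101181622330371912959175786933272841278838363925266042319676959977725642704670725064628093136985654470623782083738135246767749119508694424260265140595354510266390285243606431563281651309856815704170806500167862712158675071964032455001349281551872814131430427205307277048186328652152527252600086925030887176320726911357732384583260696906860400791110051442358644001438049059307058688331988161600234861525445414077368105553751541177308563718933608883676845985809095739543428017242250525587763383749879960121909574455910847258740774778753373252041342482258568611211274677009587892289458905242621580127118028915401295472744387214726071325843486220500559907968385353542934535276783196908511264084457303470482811499983541700027152171228579528131141616779405061568965270579984068102726382240820075358326934781938749272820122796792513354267883850435544314488207951967931456784936115742190999585366331342163916551839141992591906634917565715685877840526372643214524068814830678032206937263864587608972255577467033589317362815177688020008770547217300340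437439139183195741559455434484003708146168550608710942862938585016153705557703820901377600758664986060661326721814481252313353678840155849347483330012392875421284779210271632019271989707114186487305460498183255533650443086098854873781133324720468331654686293614130274578932840148434607911361135278236334038843994735205128187098151299619097444464297953726248141018683148514023070806059924893289004286092160961532593361238844544186913094278215014711930919670975450803122587719028298531473211461193799623113805939679471234076405404702427947822721967772676180777149108475119570894549875209001913743849987359155980569098009564408781399988392375678572393357145598784248321681977795419806295858232601897910335936918331231917151854487929680158470192050883400836033885667648799790631791443171672160798127202182211743724155047465591711289749717414217639082020834449036340843711965581140502137703793722456012237020445122880817778228834631534139539940182794739785822279876404140062052578023226478921335592023656092950653613384518218550427229634019061419273170341737174996415741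6168520418847027829808177865276251372097988594430007543359374523922940346577650897196202236113643790534436385301510229787346856004868424249492829400389219409192875514135009857599051538486136362948809776289042687845371733484484097861885473833996744346407334358367679664810854415459403348648285142129365031488395715575911202151878670601645710403511392456836298195907524556289054714064120180087823258281573868961115353625896132310811065305672947202196091481301293174671422875288101762068417091498783980657433492249010714881731382557887555437909821871832229397787733048331725783184139317695461467610345882590456875371494802264213799491974021039876021196925517709912574002707407200843262649177963852774714377526084783150902346937969261366272732968497063684487839522659576683962392657833578495874923937523528805421029015209152876250391123980268868704548533561538658879116916340797222868968658368295566613144654760975763764091997592675206581000824334042022879353650391863492574626090844159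
def lF : ℕ := 261691415953527

def chkP (D : ChevalleyDatum) (M n : ℕ) : Bool :=
  allLt (fun r => allLt (fun s => ieq (Int.add (prK D r s) 3) (Int.ofNat (pT M n r s))) n) n

def chkC (D : ChevalleyDatum) (M n : ℕ) : Bool :=
  allLt (fun r => allLt (fun s => Nat.beq ((D.chainRoot r s 1).getD 63) (cT M n r s)) n) n

def chkL (D : ChevalleyDatum) (M n : ℕ) : Bool :=
  allLt (fun r => cond (longK D r) (lT M r) (not (lT M r))) n

theorem chkP_F4 : chkP chevF4 pF 48 = true := by decide +kernel
theorem chkC_F4 : chkC chevF4 cF 48 = true := by decide +kernel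
theorem chkL_F4 : chkL chevF4 lF 48 = true := by decide +kernel
theorem chkP_G2 : chkP chevG2 pG 12 = true := by decide +kernel
theorem chkC_G2 : chkC chevG2 cG 12 = true := by decide +kernel
theorem chkL_G2 : chkL chevG2 lG 12 = true := by decide +kernel

theorem longK_of {D : ChevalleyDatum} {r : ℕ} (h : IsLong D r) : longK D r = true := by
  unfold longK
  rw [Bool.and_eq_true]
  refine ⟨Nat.ble_eq_true_of_le h.1, ?_⟩
  have key : ∀ n ≤ D.nroots, allLt (fun s => or (Nat.beq s r) (or (Nat.beq s (D.neg r))
    (or (ieq (prK D r s) 0) (or (ieq (prK D r s) 1) (ieq (prK D r s) (-1)))))) n = true := by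
    intro n
    induction n with
    | zero => exact fun _ => rfl
    | succ n ih =>
      intro hn
      show (_ && _) = true
      rw [Bool.and_eq_true]
      refine ⟨?_, ih (by omega)⟩
      simp only [Bool.or_eq_true]
      by_cases h1 : n = r
      · exact Or.inl (by rw [h1]; exact Nat.beq_refl r)
      by_cases h2 : n = D.neg r
      · exact Or.inr (Or.inl (by rw [h2]; exact Nat.beq_refl _))
      have h3 := h.2 n (by omega) h1 h2
      rw [← prK_eq, abs_le] at h3
      have h4 : prK D r n = 0 ∨ prK D r n = 1 ∨ prK D r n = -1 := by omega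
      rcases h4 with h4 | h4 | h4 <;> rw [h4]
      · exact Or.inr (Or.inr (Or.inl (ieq_self _)))
      · exact Or.inr (Or.inr (Or.inr (Or.inl (ieq_self _))))
      · exact Or.inr (Or.inr (Or.inr (Or.inr (ieq_self _))))
  exact key _ le_rfl

section Spec

variable {D : ChevalleyDatum} {n : ℕ}

theorem p_spec {M : ℕ} (h : chkP D M n = true) {r s : ℕ} (hr : r < n) (hs : s < n) :
    (pT M n r s : ℤ) = pr D r s + 3 := by
  have h1 := ieq_spec (allLt_spec (allLt_spec h r hr) s hs)
  rw [prK_eq] at h1
  exact h1.symm

theorem c_spec {M : ℕ} (h : chkC D M n = true) (hn : n ≤ 63) (hnr : D.nroots = n) (hD : InList D) {r s u : ℕ}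
    (hr : r < n) (hs : s < n) :
    D.chainRoot r s 1 = some u ↔ cT M n r s = u ∧ u ≠ 63 := by
  have h1 := Nat.eq_of_beq_eq_true (allLt_spec (allLt_spec h r hr) s hs)
  rw [← h1]
  cases hc : D.chainRoot r s 1 with
  | none => simp only [Option.getD_none, reduceCtorEq, false_iff]; omega
  | some v =>
    have h2 := (chainRoot_lt hD hc).2.2
    simp only [Option.getD_some, Option.some.injEq]
    omega

theorem l_spec {M : ℕ} (h : chkL D M n = true) {r : ℕ} (hr : r < n) : lT M r = true ↔ IsLong D r := by
  have h1 := allLt_spec h r hr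
  constructor
  · intro h2
    apply isLong_of_chk
    cases h3 : longK D r with
    | true => rfl
    | false => rw [h3, cond_false, h2] at h1; exact absurd h1 (by decide)
  · intro h2
    rw [longK_of h2, cond_true] at h1
    exact h1

end Spec

/-! ### facts on `F₄` -/

def f1 : Bool := allLt (fun r => allLt (fun s => or (lT lF r) (or (lT lF s) (or (Nat.beq s r)
  (or (Nat.beq s (chevF4.neg r)) (or (and (Nat.beq (pT pF 48 r s) 4) (Nat.beq (pT pF 48 s r) 4))
  (or (and (Nat.beq (pT pF 48 r s) 2) (and (Nat.beq (pT pF 48 s r) 2) (not (Nat.beq (cT cF 48 r s) 63))))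
    (and (not (Nat.beq (cT cF 48 r s) 63)) (lT lF (cT cF 48 r s))))))))) 48) 48

theorem f1_ok : f1 = true := by decide +kernel

/-- if `⟨s, r^∨⟩ = -1` then `r + s` is the only short root `g` with `⟨r, g^∨⟩ = ⟨s, g^∨⟩ = 1` -/
def f2 : Bool := allLt (fun r => or (lT lF r) (allLt (fun s => or (lT lF s) (or (not (Nat.beq (pT pF 48 r s) 2))
  (allLt (fun g => or (lT lF g) (or (not (Nat.beq (pT pF 48 g r) 4)) (or (not (Nat.beq (pT pF 48 g s) 4))
    (Nat.beq (cT cF 48 r s) g)))) 48))) 48)) 48

theorem f2_ok : f2 = true := by decide +kernel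

def cnt (P : ℕ → Bool) (n : ℕ) : ℕ :=
  Nat.rec (motive := fun _ => ℕ) 0 (fun k ih => cond (P k) (Nat.succ ih) ih) n

theorem cnt_eq (P : ℕ → Bool) : ∀ n : ℕ, cnt P n = ((Finset.range n).filter fun k => P k = true).card
  | 0 => rfl
  | n + 1 => by
    rw [Finset.range_add_one, Finset.filter_insert]
    show cond (P n) (Nat.succ (cnt P n)) (cnt P n) = _
    cases h : P n with
    | true =>
      rw [cond_true, if_pos rfl, Finset.card_insert_of_notMem (by simp), ← cnt_eq P n]
    | false =>
      rw [cond_false, if_neg (by decide), ← cnt_eq P n]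

/-- if `⟨s, r^∨⟩ = 1` then there are three long roots `g` with `⟨r, g^∨⟩ = ⟨s, g^∨⟩ = 1` -/
def f3 : Bool := allLt (fun r => or (lT lF r) (allLt (fun s => or (lT lF s) (or (not (Nat.beq (pT pF 48 r s) 4))
  (Nat.beq (cnt (fun g => and (lT lF g) (and (Nat.beq (pT pF 48 g r) 4) (Nat.beq (pT pF 48 g s) 4))) 48) 3))) 48)) 48

theorem f3_ok : f3 = true := by decide +kernel

/-- no four short roots mutually at 60 degrees; for three of them there is a long root `g` with `⟨a, g^∨⟩ = 1` -/
def f4 : Bool := allLt (fun r => or (lT lF r) (allLt (fun s => or (lT lF s) (or (not (Nat.beq (pT pF 48 r s) 4))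
  (allLt (fun t => or (lT lF t) (or (not (Nat.beq (pT pF 48 r t) 4)) (or (not (Nat.beq (pT pF 48 s t) 4))
    (and (anyLt (fun g => and (lT lF g) (and (Nat.beq (pT pF 48 g r) 4) (and (Nat.beq (pT pF 48 g s) 4)
      (Nat.beq (pT pF 48 g t) 4)))) 48)
      (allLt (fun x => or (lT lF x) (or (not (Nat.beq (pT pF 48 r x) 4)) (or (not (Nat.beq (pT pF 48 s x) 4))
        (not (Nat.beq (pT pF 48 t x) 4))))) 48))))) 48))) 48)) 48

theorem f4_ok : f4 = true := by decide +kernel

def g1 : Bool := allLt (fun r => allLt (fun s => or (lT lG r) (or (lT lG s) (or (Nat.beq s r)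
  (or (Nat.beq s (chevG2.neg r))
  (or (and (Nat.beq (pT pG 12 r s) 2) (and (Nat.beq (pT pG 12 s r) 2) (not (Nat.beq (cT cG 12 r s) 63))))
    (and (not (Nat.beq (cT cG 12 r s) 63)) (lT lG (cT cG 12 r s)))))))) 12) 12

theorem g1_ok : g1 = true := by decide +kernel

theorem bq {a b : ℕ} : Nat.beq a b = true ↔ a = b :=
  ⟨Nat.eq_of_beq_eq_true, fun h => by rw [h]; exact Nat.beq_refl b⟩

/-! ### classification -/

theorem inF : InList chevF4 := inList_of_mem (by simp)
theorem inG : InList chevG2 := inList_of_mem (by simp)
theorem nF : chevF4.nroots = 48 := by decide +kernel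
theorem nG : chevG2.nroots = 12 := by decide +kernel

theorem pairF {r s : ℕ} (hr : r < 48) (hs : s < 48) (h1 : ¬ IsLong chevF4 r) (h2 : ¬ IsLong chevF4 s) (h3 : s ≠ r)
    (h4 : s ≠ chevF4.neg r) : (pr chevF4 r s = 1 ∧ pr chevF4 s r = 1) ∨
      (pr chevF4 r s = -1 ∧ pr chevF4 s r = -1 ∧ ∃ u, chevF4.chainRoot r s 1 = some u) ∨
      ∃ u, chevF4.chainRoot r s 1 = some u ∧ IsLong chevF4 u := by
  have h := allLt_spec (allLt_spec f1_ok r hr) s hs
  simp only [Bool.or_eq_true, Bool.and_eq_true, Bool.not_eq_true', ← Bool.not_eq_true, bq, l_spec chkL_F4 hr,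
    l_spec chkL_F4 hs] at h
  have e1 := p_spec chkP_F4 hr hs
  have e2 := p_spec chkP_F4 hs hr
  rcases h with h | h | h | h | ⟨h5, h6⟩ | ⟨h5, h6, h7⟩ | ⟨h5, h6⟩
  · exact absurd h h1
  · exact absurd h h2
  · exact absurd h h3
  · exact absurd h h4
  · left; rw [h5] at e1; rw [h6] at e2; constructor <;> omega
  · right; left
    rw [h5] at e1; rw [h6] at e2
    refine ⟨by omega, by omega, cT cF 48 r s, (c_spec chkC_F4 (by norm_num) nF inF hr hs).2 ⟨rfl, ?_⟩⟩
    exact h7
  · right; right
    have h8 := (c_spec chkC_F4 (u := cT cF 48 r s) (by norm_num) nF inF hr hs).2 ⟨rfl, h5⟩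
    refine ⟨_, h8, ?_⟩
    have h9 := (chainRoot_lt inF h8).2.2
    rw [nF] at h9
    exact (l_spec chkL_F4 h9).1 h6

theorem pairG {r s : ℕ} (hr : r < 12) (hs : s < 12) (h1 : ¬ IsLong chevG2 r) (h2 : ¬ IsLong chevG2 s) (h3 : s ≠ r)
    (h4 : s ≠ chevG2.neg r) :
      (pr chevG2 r s = -1 ∧ pr chevG2 s r = -1 ∧ ∃ u, chevG2.chainRoot r s 1 = some u) ∨
      ∃ u, chevG2.chainRoot r s 1 = some u ∧ IsLong chevG2 u := by
  have h := allLt_spec (allLt_spec g1_ok r hr) s hs
  simp only [Bool.or_eq_true, Bool.and_eq_true, Bool.not_eq_true', ← Bool.not_eq_true, bq, l_spec chkL_G2 hr,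
    l_spec chkL_G2 hs] at h
  have e1 := p_spec chkP_G2 hr hs
  have e2 := p_spec chkP_G2 hs hr
  rcases h with h | h | h | h | ⟨h5, h6, h7⟩ | ⟨h5, h6⟩
  · exact absurd h h1
  · exact absurd h h2
  · exact absurd h h3
  · exact absurd h h4
  · left
    rw [h5] at e1; rw [h6] at e2
    refine ⟨by omega, by omega, cT cG 12 r s, (c_spec chkC_G2 (by norm_num) nG inG hr hs).2 ⟨rfl, ?_⟩⟩
    exact h7
  · right
    have h8 := (c_spec chkC_G2 (u := cT cG 12 r s) (by norm_num) nG inG hr hs).2 ⟨rfl, h5⟩
    refine ⟨_, h8, ?_⟩
    have h9 := (chainRoot_lt inG h8).2.2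
    rw [nG] at h9
    exact (l_spec chkL_G2 h9).1 h6

/-- `S` is a closed set of short roots. -/
structure Sh (D : ChevalleyDatum) (S : Set ℕ) : Prop where
  lt : ∀ r ∈ S, r < D.nroots
  cl : Closed D S
  short : ∀ r ∈ S, ¬ IsLong D r

/-- two non-proportional elements of `S`, `F₄` -/
theorem Sh.pairF {S : Set ℕ} (h : Sh chevF4 S) {r s : ℕ} (hr : r ∈ S) (hs : s ∈ S) (h3 : s ≠ r)
    (h4 : s ≠ chevF4.neg r) : (pr chevF4 r s = 1 ∧ pr chevF4 s r = 1) ∨
      (pr chevF4 r s = -1 ∧ pr chevF4 s r = -1 ∧ ∃ u ∈ S, chevF4.chainRoot r s 1 = some u) := by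
  rcases Short.pairF (nF ▸ h.lt r hr) (nF ▸ h.lt s hs) (h.short r hr) (h.short s hs) h3 h4 with h5 | h5 | h5
  · exact Or.inl h5
  · obtain ⟨h5, h6, u, hu⟩ := h5
    exact Or.inr ⟨h5, h6, u, h.cl r hr s hs u hu, hu⟩
  · obtain ⟨u, hu, hl⟩ := h5
    exact absurd hl (h.short u (h.cl r hr s hs u hu))

theorem Sh.pairG {S : Set ℕ} (h : Sh chevG2 S) {r s : ℕ} (hr : r ∈ S) (hs : s ∈ S) (h3 : s ≠ r)
    (h4 : s ≠ chevG2.neg r) :
      pr chevG2 r s = -1 ∧ pr chevG2 s r = -1 ∧ ∃ u ∈ S, chevG2.chainRoot r s 1 = some u := by
  rcases Short.pairG (nG ▸ h.lt r hr) (nG ▸ h.lt s hs) (h.short r hr) (h.short s hs) h3 h4 with h5 | h5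
  · obtain ⟨h5, h6, u, hu⟩ := h5
    exact ⟨h5, h6, u, h.cl r hr s hs u hu, hu⟩
  · obtain ⟨u, hu, hl⟩ := h5
    exact absurd hl (h.short u (h.cl r hr s hs u hu))

/-- **(R1)** The closed sets of short roots. -/
theorem short_cases {D : ChevalleyDatum} (hD : D = chevF4 ∨ D = chevG2) {S : Set ℕ} (h : Sh D S) :
    (∀ r ∈ S, D.neg r ∉ S) ∨ (∃ a ∈ S, S = {a, D.neg a}) ∨
      (D = chevF4 ∧ ∃ a c d, pr D a c = 1 ∧ pr D c a = 1 ∧ D.chainRoot (D.neg a) c 1 = some d ∧
        S = {a, D.neg a, c, d} ∧ D.neg c ∉ S ∧ D.neg d ∉ S) ∨
      (D = chevF4 ∧ ∃ a c d, pr D a c = 1 ∧ pr D c a = 1 ∧ D.chainRoot (D.neg a) c 1 = some d ∧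
        S = {a, D.neg a, c, D.neg c, d, D.neg d}) := by
  by_cases h0 : ∀ r ∈ S, D.neg r ∉ S
  · exact Or.inl h0
  right
  push Not at h0
  obtain ⟨a, ha, hna⟩ := h0
  rcases hD with rfl | rfl
  · by_cases h1 : ∀ c ∈ S, c = a ∨ c = chevF4.neg a
    · left
      refine ⟨a, ha, Set.Subset.antisymm (fun c hc => h1 c hc) ?_⟩
      rintro c (rfl | rfl)
      · exact ha
      · exact hna
    right
    push Not at h1
    obtain ⟨c, hc, hca, hcna⟩ := h1
    -- w.l.o.g. `⟨c, a^∨⟩ = 1`
    have hlt := h.lt
    have key : ∀ a ∈ S, chevF4.neg a ∈ S → ∀ c ∈ S, c ≠ a → c ≠ chevF4.neg a → pr chevF4 a c = 1 →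
        pr chevF4 c a = 1 → ∃ d, chevF4.chainRoot (chevF4.neg a) c 1 = some d ∧
          ((S = {a, chevF4.neg a, c, d} ∧ chevF4.neg c ∉ S ∧ chevF4.neg d ∉ S) ∨
            S = {a, chevF4.neg a, c, chevF4.neg c, d, chevF4.neg d}) := by
      intro a ha hna c hc hca hcna h1 h2
      have haa := neg_neg' inF (hlt a ha)
      have hcc := neg_neg' inF (hlt c hc)
      have p1 := h.pairF hna hc hcna (by rw [haa]; exact hca)
      rw [pr_neg_left inF (hlt a ha), pr_neg_right inF (hlt a ha), h1, h2] at p1
      obtain ⟨-, -, d, hd, hd'⟩ : (-1 : ℤ) = -1 ∧ (-1 : ℤ) = -1 ∧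
          ∃ u ∈ S, chevF4.chainRoot (chevF4.neg a) c 1 = some u := by
        rcases p1 with p1 | p1
        · exact absurd p1.1 (by norm_num)
        · exact p1
      refine ⟨d, hd', ?_⟩
      have hdd := neg_neg' inF (hlt d hd)
      have had := pr_add inF hd'
      -- `⟨d, t^∨⟩ = ⟨c, t^∨⟩ - ⟨a, t^∨⟩`
      have had' : ∀ t, pr chevF4 t d = pr chevF4 t c - pr chevF4 t a := fun t => by
        rw [had t, pr_neg_right inF (hlt a ha)]; ring
      -- no other roots
      have hno : ∀ x ∈ S, x = a ∨ x = chevF4.neg a ∨ x = c ∨ x = chevF4.neg c ∨ x = d ∨ x = chevF4.neg d := by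
        intro x hx
        by_contra hcon
        push Not at hcon
        obtain ⟨x1, x2, x3, x4, x5, x6⟩ := hcon
        have hxx := neg_neg' inF (hlt x hx)
        have nn : ∀ y ∈ S, x ≠ y → x ≠ chevF4.neg y → pr chevF4 x y = 1 ∨ pr chevF4 x y = -1 := by
          intro y hy h5 h6
          have h7 := h.pairF hx hy h5.symm (fun e => h6 (by rw [e, hxx]))
          rcases h7 with h7 | h7
          · exact Or.inl h7.1
          · exact Or.inr h7.1
        have q1 := nn a ha x1 x2
        have q2 := nn c hc x3 x4
        have q3 := nn d hd x5 x6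
        have q4 := had' x
        omega
      by_cases hnc : chevF4.neg c ∈ S
      · right
        -- `neg d ∈ S`
        have hnd : chevF4.neg d ∈ S := by
          have p2 := h.pairF ha hnc (fun e => hcna (by rw [← e, hcc])) (fun e => hca (by
            rw [← hcc, e, haa]))
          rw [pr_neg_left inF (hlt c hc), pr_neg_right inF (hlt c hc), h1, h2] at p2
          obtain ⟨-, -, e, he, he'⟩ : (-1 : ℤ) = -1 ∧ (-1 : ℤ) = -1 ∧
              ∃ u ∈ S, chevF4.chainRoot a (chevF4.neg c) 1 = some u := by
            rcases p2 with p2 | p2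
            · exact absurd p2.1 (by norm_num)
            · exact p2
          obtain ⟨l, M, hp⟩ := exists_type inF
          have v1 := (vec_of_chainRoot hp he').2
          have v2 := (vec_of_chainRoot hp hd').2
          rw [vec_neg hp (hlt c hc)] at v1
          rw [vec_neg hp (hlt a ha)] at v2
          have v3 : e = chevF4.neg d := by
            refine vec_inj hp (hlt e he) (neg_lt inF (hlt d hd)) ?_
            rw [v1, vec_neg hp (hlt d hd), v2]
            abel
          rw [← v3]; exact he
        refine Set.Subset.antisymm (fun x hx => ?_) ?_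
        · rcases hno x hx with rfl | rfl | rfl | rfl | rfl | rfl <;> simp
        · rintro x (rfl | rfl | rfl | rfl | rfl | rfl)
          exacts [ha, hna, hc, hnc, hd, hnd]
      · left
        have hnd : chevF4.neg d ∉ S := by
          intro hnd
          have e1 : pr chevF4 a d = -1 := by
            rw [had', h1, H428.OT.pr_self inF (hlt a ha)]; norm_num
          have hda : d ≠ a := by
            rintro rfl
            rw [H428.OT.pr_self inF (hlt d ha)] at e1; norm_num at e1
          have hdna : d ≠ chevF4.neg a := by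
            rintro rfl
            rw [H428.OT.pr_neg inF (hlt a ha)] at e1; norm_num at e1
          have p2 := h.pairF hna hnd (fun e => hda (by rw [← hdd, e, haa])) (by
            rw [haa]; intro e; exact hdna (by rw [← e, hdd]))
          rw [pr_neg_left inF (hlt a ha), pr_neg_right inF (hlt d hd), e1] at p2
          rcases p2 with p2 | p2
          · exact absurd p2.1 (by norm_num)
          · obtain ⟨-, -, u, hu, hu'⟩ := p2
            obtain ⟨l, M, hp⟩ := exists_type inF
            have v1 := (vec_of_chainRoot hp hu').2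
            have v2 := (vec_of_chainRoot hp hd').2
            rw [vec_neg hp (hlt a ha), vec_neg hp (hlt d hd)] at v1
            rw [vec_neg hp (hlt a ha)] at v2
            apply hnc
            have v3 : u = chevF4.neg c := by
              refine vec_inj hp (hlt u hu) (neg_lt inF (hlt c hc)) ?_
              rw [v1, vec_neg hp (hlt c hc), v2]
              abel
            rw [← v3]; exact hu
        refine ⟨Set.Subset.antisymm (fun x hx => ?_) ?_, hnc, hnd⟩
        · rcases hno x hx with rfl | rfl | rfl | rfl | rfl | rfl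
          · simp
          · simp
          · simp
          · exact absurd hx hnc
          · simp
          · exact absurd hx hnd
        · rintro x (rfl | rfl | rfl | rfl)
          exacts [ha, hna, hc, hd]
    have haa := neg_neg' inF (hlt a ha)
    rcases h.pairF ha hc hca hcna with h2 | h2
    · obtain ⟨d, hd, h3 | h3⟩ := key a ha hna c hc hca hcna h2.1 h2.2
      · exact Or.inl ⟨rfl, a, c, d, h2.1, h2.2, hd, h3⟩
      · exact Or.inr ⟨rfl, a, c, d, h2.1, h2.2, hd, h3⟩
    · have e1 : pr chevF4 (chevF4.neg a) c = 1 := by rw [pr_neg_left inF (hlt a ha), h2.1]; norm_num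
      have e2 : pr chevF4 c (chevF4.neg a) = 1 := by rw [pr_neg_right inF (hlt a ha), h2.2.1]; norm_num
      obtain ⟨d, hd, h3 | h3⟩ := key (chevF4.neg a) hna (by rw [haa]; exact ha) c hc hcna (by rw [haa]; exact hca) e1 e2
      · exact Or.inl ⟨rfl, chevF4.neg a, c, d, e1, e2, hd, h3⟩
      · exact Or.inr ⟨rfl, chevF4.neg a, c, d, e1, e2, hd, h3⟩
  · left
    have hlt := h.lt
    have haa := neg_neg' inG (hlt a ha)
    refine ⟨a, ha, Set.Subset.antisymm (fun c hc => ?_) ?_⟩
    · by_contra hcon
      have hca : c ≠ a := fun e => hcon (Or.inl e)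
      have hcna : c ≠ chevG2.neg a := fun e => hcon (Or.inr e)
      have h2 := (h.pairG ha hc hca hcna).1
      have h3 := (h.pairG hna hc hcna (by rw [haa]; exact hca)).1
      rw [pr_neg_left inG (hlt a ha), h2] at h3
      norm_num at h3
    · rintro c (rfl | rfl)
      · exact ha
      · exact hna

/-- **(R2)** The sets with `S ∩ -S = ∅`. -/
theorem anti_cases {D : ChevalleyDatum} (hD : D = chevF4 ∨ D = chevG2) {S : Set ℕ} (h : Sh D S)
    (ha : ∀ r ∈ S, D.neg r ∉ S) (hne : S.Nonempty) :
    (∃ s, S = {s}) ∨
      (D = chevF4 ∧ ∃ r s, r ≠ s ∧ pr D r s = 1 ∧ pr D s r = 1 ∧ S = {r, s}) ∨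
      (D = chevF4 ∧ ∃ r s u, pr D r s = -1 ∧ pr D s r = -1 ∧ D.chainRoot r s 1 = some u ∧ S = {r, s, u}) ∨
      (D = chevF4 ∧ ∃ r s t, r ≠ s ∧ r ≠ t ∧ s ≠ t ∧ pr D r s = 1 ∧ pr D s r = 1 ∧ pr D r t = 1 ∧ pr D t r = 1 ∧
        pr D s t = 1 ∧ pr D t s = 1 ∧ S = {r, s, t}) := by
  have hlt := h.lt
  rcases hD with rfl | rfl
  · have hnn : ∀ x ∈ S, ∀ y ∈ S, y ≠ chevF4.neg x := fun x hx y hy e => ha x hx (e ▸ hy)
    by_cases h1 : ∃ r ∈ S, ∃ s ∈ S, pr chevF4 r s = -1
    · obtain ⟨r, hr, s, hs, h1⟩ := h1
      have hsr : s ≠ r := by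
        rintro rfl
        rw [H428.OT.pr_self inF (hlt s hs)] at h1; norm_num at h1
      rcases h.pairF hr hs hsr (hnn r hr s hs) with h2 | h2
      · exact absurd (h1.symm.trans h2.1) (by norm_num)
      obtain ⟨-, h2, u, hu, hu'⟩ := h2
      right; right; left
      refine ⟨rfl, r, s, u, h1, h2, hu', Set.Subset.antisymm (fun x hx => ?_) ?_⟩
      · by_contra hcon
        have x1 : x ≠ r := fun e => hcon (Or.inl e)
        have x2 : x ≠ s := fun e => hcon (Or.inr (Or.inl e))
        have x3 : x ≠ u := fun e => hcon (Or.inr (Or.inr e))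
        have nn : ∀ y ∈ S, x ≠ y → pr chevF4 x y = 1 ∨ pr chevF4 x y = -1 := by
          intro y hy h5
          rcases h.pairF hx hy h5.symm (hnn x hx y hy) with h7 | h7
          · exact Or.inl h7.1
          · exact Or.inr h7.1
        have q1 := nn r hr x1
        have q2 := nn s hs x2
        have q3 := nn u hu x3
        have q4 := pr_add inF hu' x
        omega
      · rintro x (rfl | rfl | rfl)
        exacts [hr, hs, hu]
    · push Not at h1
      have h60 : ∀ x ∈ S, ∀ y ∈ S, x ≠ y → pr chevF4 x y = 1 := by
        intro x hx y hy hxy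
        rcases h.pairF hx hy hxy.symm (hnn x hx y hy) with h2 | h2
        · exact h2.1
        · exact absurd h2.1 (h1 x hx y hy)
      obtain ⟨r, hr⟩ := hne
      by_cases h2 : ∀ s ∈ S, s = r
      · left
        exact ⟨r, Set.Subset.antisymm (fun x hx => h2 x hx) (by rintro x rfl; exact hr)⟩
      push Not at h2
      obtain ⟨s, hs, hsr⟩ := h2
      by_cases h3 : ∀ t ∈ S, t = r ∨ t = s
      · right; left
        refine ⟨rfl, r, s, hsr.symm, h60 r hr s hs hsr.symm, h60 s hs r hr hsr,
          Set.Subset.antisymm (fun x hx => h3 x hx) ?_⟩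
        rintro x (rfl | rfl)
        exacts [hr, hs]
      push Not at h3
      obtain ⟨t, ht, htr, hts⟩ := h3
      right; right; right
      refine ⟨rfl, r, s, t, hsr.symm, htr.symm, hts.symm, h60 r hr s hs hsr.symm, h60 s hs r hr hsr,
        h60 r hr t ht htr.symm, h60 t ht r hr htr, h60 s hs t ht hts.symm, h60 t ht s hs hts,
        Set.Subset.antisymm (fun x hx => ?_) ?_⟩
      · by_contra hcon
        have x1 : x ≠ r := fun e => hcon (Or.inl e)
        have x2 : x ≠ s := fun e => hcon (Or.inr (Or.inl e))
        have x3 : x ≠ t := fun e => hcon (Or.inr (Or.inr e))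
        have lr : r < 48 := nF ▸ hlt r hr
        have ls : s < 48 := nF ▸ hlt s hs
        have lt : t < 48 := nF ▸ hlt t ht
        have lx : x < 48 := nF ▸ hlt x hx
        have hh := allLt_spec f4_ok r lr
        simp only [Bool.or_eq_true, l_spec chkL_F4 lr] at hh
        have hh := allLt_spec (hh.resolve_left (h.short r hr)) s ls
        simp only [Bool.or_eq_true, l_spec chkL_F4 ls, Bool.not_eq_true', ← Bool.not_eq_true,
          bq] at hh
        have e1 : pT pF 48 r s = 4 := by
          have := p_spec chkP_F4 lr ls
          rw [h60 r hr s hs hsr.symm] at this; omega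
        have hh := allLt_spec ((hh.resolve_left (h.short s hs)).resolve_left (not_not.2 e1)) t lt
        simp only [Bool.or_eq_true, l_spec chkL_F4 lt, Bool.not_eq_true', ← Bool.not_eq_true,
          bq, Bool.and_eq_true] at hh
        have e2 : pT pF 48 r t = 4 := by
          have := p_spec chkP_F4 lr lt
          rw [h60 r hr t ht htr.symm] at this; omega
        have e3 : pT pF 48 s t = 4 := by
          have := p_spec chkP_F4 ls lt
          rw [h60 s hs t ht hts.symm] at this; omega
        have hh := (((hh.resolve_left (h.short t ht)).resolve_left (not_not.2 e2)).resolve_left (not_not.2 e3)).2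
        have hh := allLt_spec hh x lx
        simp only [Bool.or_eq_true, l_spec chkL_F4 lx, Bool.not_eq_true', ← Bool.not_eq_true,
          bq] at hh
        have e4 : pT pF 48 r x = 4 := by
          have := p_spec chkP_F4 lr lx
          rw [h60 r hr x hx x1.symm] at this; omega
        have e5 : pT pF 48 s x = 4 := by
          have := p_spec chkP_F4 ls lx
          rw [h60 s hs x hx x2.symm] at this; omega
        have e6 : pT pF 48 t x = 4 := by
          have := p_spec chkP_F4 lt lx
          rw [h60 t ht x hx x3.symm] at this; omega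
        rcases hh with hh | hh | hh | hh
        · exact h.short x hx hh
        · exact hh e4
        · exact hh e5
        · exact hh e6
      · rintro x (rfl | rfl | rfl)
        exacts [hr, hs, ht]
  · left
    obtain ⟨r, hr⟩ := hne
    refine ⟨r, Set.Subset.antisymm (fun s hs => ?_) (by rintro x rfl; exact hr)⟩
    by_contra hsr
    have hsr' : s ≠ r := hsr
    have hnn : ∀ x ∈ S, ∀ y ∈ S, y ≠ chevG2.neg x := fun x hx y hy e => ha x hx (e ▸ hy)
    obtain ⟨h1, h2, u, hu, hu'⟩ := h.pairG hr hs hsr' (hnn r hr s hs)
    have h3 : pr chevG2 r u = 1 := by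
      rw [pr_add inG hu', h1, H428.OT.pr_self inG (hlt r hr)]; norm_num
    have hur : u ≠ r := by
      rintro rfl
      rw [H428.OT.pr_self inG (hlt u hr)] at h3; norm_num at h3
    have h4 := (h.pairG hr hu hur (hnn r hr u hu)).1
    rw [h3] at h4
    norm_num at h4

/-! ### long roots near short roots, `F₄` -/

theorem pT_of {r s : ℕ} (hr : r < 48) (hs : s < 48) : pT pF 48 r s = 4 ↔ pr chevF4 r s = 1 := by
  have := p_spec chkP_F4 hr hs
  omega

/-- three short roots mutually at 60 degrees: a long root `g` with `⟨a, g^∨⟩ = 1` for each of them -/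
theorem long_of_triple {r s t : ℕ} (hr : r < 48) (hs : s < 48) (ht : t < 48) (h1 : ¬ IsLong chevF4 r)
    (h2 : ¬ IsLong chevF4 s) (h3 : ¬ IsLong chevF4 t) (e1 : pr chevF4 r s = 1) (e2 : pr chevF4 r t = 1)
    (e3 : pr chevF4 s t = 1) :
    ∃ g, IsLong chevF4 g ∧ pr chevF4 g r = 1 ∧ pr chevF4 g s = 1 ∧ pr chevF4 g t = 1 := by
  have hh := allLt_spec f4_ok r hr
  simp only [Bool.or_eq_true, l_spec chkL_F4 hr] at hh
  have hh := allLt_spec (hh.resolve_left h1) s hs
  simp only [Bool.or_eq_true, l_spec chkL_F4 hs, Bool.not_eq_true', ← Bool.not_eq_true, bq] at hh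
  have hh := allLt_spec ((hh.resolve_left h2).resolve_left (not_not.2 ((pT_of hr hs).2 e1))) t ht
  simp only [Bool.or_eq_true, l_spec chkL_F4 ht, Bool.not_eq_true', ← Bool.not_eq_true, bq,
    Bool.and_eq_true] at hh
  have hh := (((hh.resolve_left h3).resolve_left (not_not.2 ((pT_of hr ht).2 e2))).resolve_left
    (not_not.2 ((pT_of hs ht).2 e3))).1
  obtain ⟨g, hg, h4⟩ := anyLt_spec hh
  simp only [Bool.and_eq_true, bq, l_spec chkL_F4 hg, pT_of hg hr, pT_of hg hs, pT_of hg ht] at h4
  exact ⟨g, h4⟩

/-- the three long roots `g` with `⟨r, g^∨⟩ = ⟨s, g^∨⟩ = 1` for short `r`, `s` at 60 degrees -/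
theorem three_long {r s : ℕ} (hr : r < 48) (hs : s < 48) (h1 : ¬ IsLong chevF4 r) (h2 : ¬ IsLong chevF4 s)
    (e1 : pr chevF4 r s = 1) : ∃ G : Finset ℕ, G.card = 3 ∧
      ∀ g, g ∈ G ↔ IsLong chevF4 g ∧ pr chevF4 g r = 1 ∧ pr chevF4 g s = 1 := by
  have hh := allLt_spec f3_ok r hr
  simp only [Bool.or_eq_true, l_spec chkL_F4 hr] at hh
  have hh := allLt_spec (hh.resolve_left h1) s hs
  simp only [Bool.or_eq_true, l_spec chkL_F4 hs, Bool.not_eq_true', ← Bool.not_eq_true, bq] at hh
  have hh := (hh.resolve_left h2).resolve_left (not_not.2 ((pT_of hr hs).2 e1))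
  rw [cnt_eq] at hh
  refine ⟨_, hh, fun g => ?_⟩
  rw [Finset.mem_filter, Finset.mem_range]
  constructor
  · rintro ⟨hg, h4⟩
    simp only [Bool.and_eq_true, bq, l_spec chkL_F4 hg, pT_of hg hr, pT_of hg hs] at h4
    exact h4
  · intro h4
    have hg : g < 48 := nF ▸ h4.1.1
    refine ⟨hg, ?_⟩
    simp only [Bool.and_eq_true, bq, l_spec chkL_F4 hg, pT_of hg hr, pT_of hg hs]
    exact h4

theorem long_of_pair {r s : ℕ} (hr : r < 48) (hs : s < 48) (h1 : ¬ IsLong chevF4 r) (h2 : ¬ IsLong chevF4 s)
    (e1 : pr chevF4 r s = 1) : ∃ g, IsLong chevF4 g ∧ pr chevF4 g r = 1 ∧ pr chevF4 g s = 1 := by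
  obtain ⟨G, hG, h⟩ := three_long hr hs h1 h2 e1
  obtain ⟨g, hg⟩ : G.Nonempty := by
    rw [← Finset.card_pos, hG]; norm_num
  exact ⟨g, (h g).1 hg⟩

/-- `r + s` is the only short root at 60 degrees with `r` and `s`, for short `r`, `s` at 120 degrees -/
theorem sum_unique {r s g : ℕ} (hr : r < 48) (hs : s < 48) (hg : g < 48) (h1 : ¬ IsLong chevF4 r)
    (h2 : ¬ IsLong chevF4 s) (h3 : ¬ IsLong chevF4 g) (e1 : pr chevF4 r s = -1) (e2 : pr chevF4 g r = 1)
    (e3 : pr chevF4 g s = 1) : chevF4.chainRoot r s 1 = some g := by
  have hh := allLt_spec f2_ok r hr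
  simp only [Bool.or_eq_true, l_spec chkL_F4 hr] at hh
  have hh := allLt_spec (hh.resolve_left h1) s hs
  simp only [Bool.or_eq_true, l_spec chkL_F4 hs, Bool.not_eq_true', ← Bool.not_eq_true, bq] at hh
  have e4 : pT pF 48 r s = 2 := by
    have := p_spec chkP_F4 hr hs
    rw [e1] at this; omega
  have hh := allLt_spec ((hh.resolve_left h2).resolve_left (not_not.2 e4)) g hg
  simp only [Bool.or_eq_true, l_spec chkL_F4 hg, Bool.not_eq_true', ← Bool.not_eq_true, bq] at hh
  have hh := ((hh.resolve_left h3).resolve_left (not_not.2 ((pT_of hg hr).2 e2))).resolve_left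
    (not_not.2 ((pT_of hg hs).2 e3))
  exact (c_spec chkC_F4 (by norm_num) nF inF hr hs).2 ⟨hh, by omega⟩

/-! ### fixed roots -/

section Fix

variable {D : ChevalleyDatum} (hD : InList D) {w : Fin D.nroots → Fin D.nroots}
  (hw : ∀ r s : Fin D.nroots, pr D (w r) (w s) = pr D r s)

include hD hw

theorem w_neg (g : Fin D.nroots) : (w ⟨D.neg g, neg_lt hD g.2⟩ : ℕ) = D.neg (w g) := by
  have hn := neg_lt hD g.2
  set y : Fin D.nroots := ⟨D.neg g, hn⟩ with hy
  have h1 : D.neg (w y) = w g := by
    refine eq_of_pr hD (neg_lt hD (w y).2) (w g).2 ?_ ?_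
    · rw [pr_neg_left hD (w y).2, hw]
      show -pr D (D.neg g) g = 2
      rw [pr_neg_left hD g.2, H428.OT.pr_self hD g.2]; norm_num
    · rw [pr_neg_right hD (w y).2, hw]
      show -pr D g (D.neg g) = 2
      rw [H428.OT.pr_neg hD g.2]; norm_num
  rw [← h1, neg_neg' hD (w y).2]

theorem w_long (hw2 : ∀ r, w (w r) = r) {g : Fin D.nroots} (hg : IsLong D g) : IsLong D (w g) := by
  refine ⟨(w g).2, fun s hs h1 h2 => ?_⟩
  have h3 : s = (w (w ⟨s, hs⟩) : ℕ) := by rw [hw2]
  rw [h3, hw]
  refine hg.2 _ (w ⟨s, hs⟩).2 (fun e => h1 ?_) (fun e => h2 ?_)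
  · rw [h3, Fin.ext e]
  · have h4 : w ⟨s, hs⟩ = ⟨D.neg g, neg_lt hD g.2⟩ := Fin.ext e
    rw [h3, h4, w_neg hD hw]

end Fix

/-- **(R3)** If `w` preserves `pr`, `w² = 1` and `w S = S`, `S ∩ -S = ∅`, then `w` fixes a root which is not
orthogonal to `S`. -/
theorem fixed_anti {D : ChevalleyDatum} (hD : D = chevF4 ∨ D = chevG2) {S : Set ℕ} (h : Sh D S)
    (ha : ∀ r ∈ S, D.neg r ∉ S) (hne : S.Nonempty) {w : Fin D.nroots → Fin D.nroots}
    (hw : ∀ r s : Fin D.nroots, pr D (w r) (w s) = pr D r s) (hw2 : ∀ r, w (w r) = r)
    (hwS : ∀ r : Fin D.nroots, (r : ℕ) ∈ S → ((w r : Fin D.nroots) : ℕ) ∈ S) :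
    ∃ g : Fin D.nroots, w g = g ∧ ∃ s ∈ S, pr D g s ≠ 0 := by
  rcases hD with rfl | rfl
  · obtain ⟨s, hs⟩ := hne
    set s' : Fin chevF4.nroots := ⟨s, h.lt s hs⟩ with hs'
    by_cases h1 : w s' = s'
    · exact ⟨s', h1, s, hs, by
        show pr chevF4 s s ≠ 0
        rw [H428.OT.pr_self inF (h.lt s hs)]; norm_num⟩
    set t : ℕ := (w s' : ℕ) with ht
    have htS : t ∈ S := hwS s' hs
    have hts : t ≠ s := fun e => h1 (Fin.ext e)
    have hwt : w ⟨t, h.lt t htS⟩ = s' := hw2 s'
    have ls : s < 48 := nF ▸ h.lt s hs
    have lt : t < 48 := nF ▸ h.lt t htS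
    have e1 : ∀ x : Fin chevF4.nroots, pr chevF4 (w x) s = pr chevF4 x t := by
      intro x
      have := hw x ⟨t, h.lt t htS⟩
      rw [hwt] at this
      exact this
    have e2 : ∀ x : Fin chevF4.nroots, pr chevF4 (w x) t = pr chevF4 x s := fun x => hw x s'
    rcases h.pairF hs htS hts (fun e => ha s hs (e ▸ htS)) with h2 | h2
    · obtain ⟨G, hG, hG'⟩ := three_long ls lt (h.short s hs) (h.short t htS) h2.1
      by_contra hcon
      push Not at hcon
      have hlt : ∀ g ∈ G, g < chevF4.nroots := fun g hg => ((hG' g).1 hg).1.1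
      have h3 : ∑ x ∈ G, (1 : ZMod 2) = 0 := by
        refine Finset.sum_involution (fun g hg => ((w ⟨g, hlt g hg⟩ : Fin chevF4.nroots) : ℕ)) ?_ ?_ ?_ ?_
        · intro g hg
          decide
        · intro g hg _ h4
          have h5 := hcon ⟨g, hlt g hg⟩ (Fin.ext h4) s hs
          rw [((hG' g).1 hg).2.1] at h5
          exact absurd h5 (by norm_num)
        · intro g hg
          have h4 := (hG' g).1 hg
          refine (hG' _).2 ⟨w_long inF hw hw2 h4.1, ?_, ?_⟩
          · rw [e1]; exact h4.2.2
          · rw [e2]; exact h4.2.1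
        · intro g hg
          show ((w (w ⟨g, hlt g hg⟩) : Fin chevF4.nroots) : ℕ) = g
          rw [hw2]
      rw [Finset.sum_const, hG] at h3
      exact absurd h3 (by decide)
    · obtain ⟨h2, h3, u, hu, hu'⟩ := h2
      have lu := h.lt u hu
      have hus : pr chevF4 s u = 1 := by
        rw [pr_add inF hu', h2, H428.OT.pr_self inF (h.lt s hs)]; norm_num
      have hut : pr chevF4 t u = 1 := by
        rw [pr_add inF hu', h3, H428.OT.pr_self inF (h.lt t htS)]; norm_num
      have key : ∀ x ∈ S, pr chevF4 x u = 1 → pr chevF4 u x = 1 := by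
        intro x hx hxu
        have hux : u ≠ x := by
          rintro rfl
          rw [H428.OT.pr_self inF lu] at hxu; norm_num at hxu
        rcases h.pairF hx hu hux (fun e => ha x hx (e ▸ hu)) with h4 | h4
        · exact h4.2
        · exact absurd (hxu.symm.trans h4.1) (by norm_num)
      have hwu : ((w ⟨u, lu⟩ : Fin chevF4.nroots) : ℕ) ∈ S := hwS ⟨u, lu⟩ hu
      have h4 := sum_unique (g := ((w ⟨u, lu⟩ : Fin chevF4.nroots) : ℕ)) ls lt (nF ▸ h.lt _ hwu) (h.short s hs)
        (h.short t htS) (h.short _ hwu) h2 (by rw [e1]; exact key t htS hut) (by rw [e2]; exact key s hs hus)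
      refine ⟨⟨u, lu⟩, ?_, s, hs, ?_⟩
      · rw [hu'] at h4
        exact Fin.ext (Option.some.inj h4).symm
      · show pr chevF4 u s ≠ 0
        rw [key s hs hus]; norm_num
  · rcases anti_cases (Or.inr rfl) h ha hne with ⟨s, rfl⟩ | ⟨h1, -⟩ | ⟨h1, -⟩ | ⟨h1, -⟩
    · have ls := h.lt s rfl
      refine ⟨⟨s, ls⟩, Fin.ext (hwS ⟨s, ls⟩ rfl), s, rfl, ?_⟩
      show pr chevG2 s s ≠ 0
      rw [H428.OT.pr_self inG ls]; norm_num
    all_goals exact absurd (congrArg ChevalleyDatum.nroots h1) (by rw [nF, nG]; norm_num)

end Cfsg.Agent.H460.OT.Short
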