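import Mathlib
import Cfsg.Agent.H460.OT.Bru

/-!
helper460 (S2539, layer 0). The Bruhat decomposition of `G(S)`, general case (`S` closed under addition).
-/

set_option autoImplicit false
set_option linter.unusedSectionVars false

namespace Cfsg.Agent.H460.OT

open CoxeterSystem Cfsg.Agent.ChevalleyStructure.CoxeterGeom Cfsg.Agent.Tits.Roots Cfsg.Agent.Tits.Core
  Cfsg.Agent.Tits.RootComb Cfsg.Agent.Tits.Exchange Cfsg.Agent.Nodes.Reps Cfsg.Agent.Nodes.BNOf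
  Cfsg.Agent.Nodes.StabComb Cfsg.Agent.Nodes.Bruhat Cfsg.Agent.Nodes.OppDec Cfsg.Agent.Nodes.LeviDec
  Cfsg.Agent.Nodes.Coroot Cfsg.Agent.Nodes.PosPair Cfsg.Agent.KFacts.RgdSL
  Cfsg.Agent.KFacts.RgdPar Cfsg.Agent.KFacts.RgdBorelTits Cfsg.Agent.Nodes.Unique
open scoped commutatorElement

variable {I W Y : Type*} [Fintype I] [DecidableEq I] [Group W] [Group Y] {M : CoxeterMatrix I}
  {cs : CoxeterSystem M W} {A : I → I → ℤ} {h : IsCartan M A} {p : ℕ} {T : Subgroup Y} {n : I → Y}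
  {X : (I → ℤ) → Subgroup Y}

section

variable (R : RGD cs h p T n X)

include R

theorem RS_cj {H : Subgroup Y} {w : W} {k : Y} (hk : Rp cs R.nsys w k) {x : I → ℤ} :
    x ∈ RS cs h X (cj k⁻¹ H) ↔ rep cs h w x ∈ RS cs h X H := by
  constructor
  · rintro ⟨hx, h1⟩
    refine ⟨hx.act w, ?_⟩
    rw [← R.conj_rp hk hx]
    have h2 := cj_mono k h1
    rwa [cj_cj_inv] at h2
  · rintro ⟨hx, h1⟩
    have hx' : IsRoot cs h x := by
      have := hx.act w⁻¹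
      rwa [rep_inv_apply] at this
    refine ⟨hx', ?_⟩
    rw [← R.conj_rp hk hx'] at h1
    have h2 := cj_mono k⁻¹ h1
    rwa [cj_inv_cj] at h2

theorem cj_T' {w : W} {k : Y} (hk : Rp cs R.nsys w k) : cj k T = T := mem_normalizer_iff_cj.1 hk.mem_normalizer

theorem G0_cj {H : Subgroup Y} {w : W} {k : Y} (hk : Rp cs R.nsys w k) :
    G0 cs h T X (cj k⁻¹ H) = cj k⁻¹ (G0 cs h T X H) := by
  unfold G0
  rw [cj_sup, cj_T' R hk.inv]
  congr 1
  rw [RGD.cj_Sup]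
  apply le_antisymm
  · refine RGD.Sup_le fun x hx => ?_
    have h1 := (RS_cj R hk).1 hx
    have h2 : X x = cj k⁻¹ (X (rep cs h w x)) := by rw [← R.conj_rp hk hx.1, cj_inv_cj]
    rw [h2]
    exact le_iSup (fun z : RS cs h X H => cj k⁻¹ (X z.1)) ⟨_, h1⟩
  · refine iSup_le ?_
    rintro ⟨x, hx⟩
    have h1 : x = rep cs h w (rep cs h w⁻¹ x) := (rep_apply_inv cs h w x).symm
    have h2 : rep cs h w⁻¹ x ∈ RS cs h X (cj k⁻¹ H) := (RS_cj R hk).2 (by rw [← h1]; exact hx)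
    have h3 : cj k⁻¹ (X x) = X (rep cs h w⁻¹ x) := R.conj_rp hk.inv hx.1
    show cj k⁻¹ (X x) ≤ _
    rw [h3]
    exact RGD.le_Sup h2

theorem WS_cj [Finite W] {H : Subgroup Y} {w : W} {k : Y} (hk : Rp cs R.nsys w k) {v : W}
    (hv : v ∈ WS cs h X (cj k⁻¹ H)) : w * v * w⁻¹ ∈ WS cs h X H := by
  induction hv using Subgroup.closure_induction with
  | mem s hs =>
    obtain ⟨a, ha, ha', hs⟩ := hs
    refine Subgroup.subset_closure ⟨rep cs h w a, (RS_cj R hk).1 ha, ?_, hs.conj ha.1 w⟩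
    rw [← map_neg]
    exact (RS_cj R hk).1 ha'
  | one => rw [mul_one, mul_inv_cancel]; exact one_mem _
  | mul x y _ _ ih ih' =>
    have : w * (x * y) * w⁻¹ = (w * x * w⁻¹) * (w * y * w⁻¹) := by group
    rw [this]
    exact mul_mem ih ih'
  | inv x _ ih =>
    have : w * x⁻¹ * w⁻¹ = (w * x * w⁻¹)⁻¹ := by group
    rw [this]
    exact inv_mem ih

variable [Finite W] [Finite Y] [hp : Fact p.Prime] {z : I → Y} (D : TD cs h T X z) {H : Subgroup Y} (hTH : T ≤ H)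

omit [Finite Y] hp in
include hTH in
/-- There is a positive system containing the non-symmetric roots of `H`. -/
theorem exists_pos_conj (hadd : ∀ x ∈ RS cs h X H, ∀ y ∈ RS cs h X H, IsRoot cs h (x + y) → x + y ∈ RS cs h X H) :
    ∃ w k, Rp cs R.nsys w k ∧ (∀ x ∈ RS cs h X H, -x ∉ RS cs h X H → 0 ≤ rep cs h w⁻¹ x) := by
  obtain ⟨w, hw⟩ := exists_pos_system (cs := cs) (h := h) (S := RS cs h X H) (fun x hx => hx.1)
    (fun a ha ha' x hx => RS_refl R hTH ha ha' hx) hadd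
  obtain ⟨k, hk⟩ := exists_rp cs R.nsys w
  refine ⟨w, k, hk, fun x hx hx' => ?_⟩
  by_contra h0
  apply hx'
  refine hw (-x) hx.1.neg ?_ (by rw [neg_neg]; exact hx)
  rw [map_neg]
  exact neg_nonneg.2 (((hx.1.act w⁻¹).not_nonneg_iff).1 h0)

include D hTH in
/-- **The structure of `G(S)`.** -/
theorem struct_gen (hadd : ∀ x ∈ RS cs h X H, ∀ y ∈ RS cs h X H, IsRoot cs h (x + y) → x + y ∈ RS cs h X H) :
    ∃ w k, Rp cs R.nsys w k ∧ (∀ x ∈ RS cs h X H, -x ∉ RS cs h X H → 0 ≤ rep cs h w⁻¹ x) ∧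
      H ⊓ cj k (RGD.Sup X (RGD.Pos cs h)) = RGD.Sup X {x | x ∈ RS cs h X H ∧ 0 ≤ rep cs h w⁻¹ x} ∧
      (∀ g ∈ G0 cs h T X H, ∃ u ∈ H ⊓ cj k (RGD.Sup X (RGD.Pos cs h)), ∃ v ∈ WS cs h X H, ∃ m ∈ G0 cs h T X H,
        Rp cs R.nsys v m ∧ ∃ u' ∈ H ⊓ cj k (RGD.Sup X (RGD.Pos cs h)), g = u * m * u') ∧
      (∀ P : Subgroup Y, IsPGroup p P → H ⊓ cj k (RGD.Sup X (RGD.Pos cs h)) ≤ P → P ≤ G0 cs h T X H →
        P = H ⊓ cj k (RGD.Sup X (RGD.Pos cs h))) := by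
  obtain ⟨w, k, hk, hpos⟩ := exists_pos_conj R hTH hadd
  have hTH' : T ≤ cj k⁻¹ H := by
    rw [← cj_T' R hk.inv]; exact cj_mono _ hTH
  have hpos' : ∀ a ∈ RS cs h X (cj k⁻¹ H), -a ∉ RS cs h X (cj k⁻¹ H) → 0 ≤ a := by
    intro a ha ha'
    have h1 := hpos _ ((RS_cj R hk).1 ha) (fun h2 => ha' ((RS_cj R hk).2 (by rwa [map_neg])))
    rwa [rep_inv_apply] at h1
  have hU : H ⊓ cj k (RGD.Sup X (RGD.Pos cs h)) = cj k (RGD.Sup X (SP cs h X (cj k⁻¹ H))) := by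
    rw [← inf_U R D hTH']
    ext g
    rw [mem_cj, Subgroup.mem_inf, Subgroup.mem_inf, mem_cj, mem_cj]
    have : k⁻¹⁻¹ * (k⁻¹ * g * k) * k⁻¹ = g := by group
    rw [this]
  refine ⟨w, k, hk, hpos, ?_, ?_, ?_⟩
  · rw [hU]
    apply le_antisymm
    · exact cj_Sup_le R hk (S := SP cs h X (cj k⁻¹ H)) (fun x hx => hx.1.1)
        (fun x hx => ⟨(RS_cj R hk).1 hx.1, by rw [rep_inv_apply]; exact hx.2⟩)
    · refine RGD.Sup_le fun x hx => ?_
      have h1 : X x = cj k (X (rep cs h w⁻¹ x)) := by rw [R.conj_rp hk (hx.1.1.act _), rep_apply_inv]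
      rw [h1]
      exact cj_mono k (RGD.le_Sup (S := SP cs h X (cj k⁻¹ H))
        ⟨(RS_cj R hk).2 (by rw [rep_apply_inv]; exact hx.1), hx.2⟩)
  · intro g hg
    obtain ⟨u, hu, v, hv, m, hm, hmv, u', hu', e⟩ := gam_of_mem R D hTH' hpos' (g := k⁻¹ * g * k) (by
      rw [G0_cj R hk, mem_cj]
      have : k⁻¹⁻¹ * (k⁻¹ * g * k) * k⁻¹ = g := by group
      rwa [this])
    refine ⟨k * u * k⁻¹, ?_, w * v * w⁻¹, WS_cj R hk (W0_le_WS hv), k * m * k⁻¹, ?_, (hk.mul hmv).mul hk.inv,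
      k * u' * k⁻¹, ?_, ?_⟩
    · rw [hU]; exact conj_mem_cj.2 hu
    · rw [G0_cj R hk, mem_cj, inv_inv] at hm
      exact hm
    · rw [hU]; exact conj_mem_cj.2 hu'
    · calc g = k * (k⁻¹ * g * k) * k⁻¹ := by group
        _ = _ := by rw [e]; group
  · intro P hP hUP hPH
    have h1 := sylow_pos R D hTH' hpos' (P := cj k⁻¹ P) (hP.map _) (by
      rw [hU] at hUP
      have h2 := cj_mono k⁻¹ hUP
      rwa [cj_inv_cj] at h2) (by
      rw [G0_cj R hk]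
      exact cj_mono _ hPH)
    rw [hU, ← h1, cj_cj_inv]

include D hTH in
/-- **The Weyl group of `G(S)`.** -/
theorem mem_WS_of_rp (hadd : ∀ x ∈ RS cs h X H, ∀ y ∈ RS cs h X H, IsRoot cs h (x + y) → x + y ∈ RS cs h X H)
    {g : Y} (hg : g ∈ G0 cs h T X H) {v : W} (hv : Rp cs R.nsys v g) : v ∈ WS cs h X H := by
  obtain ⟨w, k, hk, hpos⟩ := exists_pos_conj R hTH hadd
  have hTH' : T ≤ cj k⁻¹ H := by
    rw [← cj_T' R hk.inv]; exact cj_mono _ hTH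
  have hpos' : ∀ a ∈ RS cs h X (cj k⁻¹ H), -a ∉ RS cs h X (cj k⁻¹ H) → 0 ≤ a := by
    intro a ha ha'
    have h1 := hpos _ ((RS_cj R hk).1 ha) (fun h2 => ha' ((RS_cj R hk).2 (by rwa [map_neg])))
    rwa [rep_inv_apply] at h1
  have h1 := mem_W0_of_rp R D hTH' hpos' (g := k⁻¹ * g * k⁻¹⁻¹) (by
    rw [G0_cj R hk, mem_cj]
    have : k⁻¹⁻¹ * (k⁻¹ * g * k⁻¹⁻¹) * k⁻¹ = g := by group
    rwa [this]) ((hk.inv.mul hv).mul hk.inv.inv)
  have h2 := WS_cj R hk (W0_le_WS h1)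
  have h3 : w * (w⁻¹ * v * w⁻¹⁻¹) * w⁻¹ = v := by group
  rwa [h3] at h2

omit [Finite Y] hp in
include D in
/-- `N_G(T)` is the group of representatives. -/
theorem exists_rp_of_norm {g : Y} (hg : g ∈ GG cs h T X) (hgT : cj g T = T) : ∃ w, Rp cs R.nsys w g := by
  have hf : ∀ i, 0 ≤ Nodes.Slope.htHom (sr i : I → ℤ) := fun i =>
    (RGD.ht_pos (isRoot_sr cs h i) (sr_nonneg i)).le
  have hPB : PS T X (Half cs h Nodes.Slope.htHom) ≤ RGD.B cs h T X := by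
    refine sup_le RGD.T_le_B (RGD.Sup_le fun x hx => ?_)
    have hx0 : 0 ≤ x := by
      by_contra h0
      have h1 := RGD.ht_pos hx.1.neg (neg_nonneg.2 ((hx.1.not_nonneg_iff).1 h0))
      have h2 : Nodes.Slope.htHom x = ht x := rfl
      have h3 := hx.2
      have h4 : ht (-x) = -ht x := by
        have := RGD.ht_smul (-1) x
        rwa [neg_one_smul, neg_one_mul] at this
      rw [h2] at h3
      omega
    exact RGD.X_le_B hx.1 hx0
  have hginv : ∀ t ∈ T, g⁻¹ * t * g ∈ T := by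
    intro t ht
    have := mem_cj.1 (hgT.symm ▸ ht : t ∈ cj g T)
    exact this
  obtain ⟨w, k, hk, h1⟩ := std_of_T_le R D hf hg (fun t ht => T_le_PS (hginv t ht))
  obtain ⟨t, ht, u, hu, e⟩ := R.mem_B.1 (hPB h1)
  -- `u` normalises `T`
  have hu1 : u = 1 := by
    refine cent_fut R (E := (T : Set Y)) (fun _ ht => ht) (1 : W) (fun x hx u hu hc => D.fpf R hx.1 hu hc) ?_ ?_
    · rw [fut_one]
      exact hu
    · intro s hs
      have h2 : u = t⁻¹ * k⁻¹ * g := by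
        rw [mul_assoc, e]; group
      have hg' : ∀ s ∈ T, g * s * g⁻¹ ∈ T := fun s hs => hgT ▸ conj_mem_cj.2 hs
      have h3 : u * s * u⁻¹ ∈ T := by
        have h4 := cj_T_of_rp R hk (hg' s hs)
        have h5 : u * s * u⁻¹ = t⁻¹ * (k⁻¹ * (g * s * g⁻¹) * k) * t := by rw [h2]; group
        rw [h5]
        exact mul_mem (mul_mem (inv_mem ht) h4) ht
      have h4 : u * s * u⁻¹ * s⁻¹ ∈ RGD.Sup X (RGD.Pos cs h) ⊓ T := by
        refine Subgroup.mem_inf.2 ⟨?_, mul_mem h3 (inv_mem hs)⟩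
        have h5 : s * u⁻¹ * s⁻¹ ∈ RGD.Sup X (RGD.Pos cs h) :=
          FS_T_inv (S := RGD.Pos cs h) (fun x hx => R.tor x hx.1 s hs) (conj_mem_cj.2 (inv_mem hu))
        have h6 : u * s * u⁻¹ * s⁻¹ = u * (s * u⁻¹ * s⁻¹) := by group
        rw [h6]
        exact mul_mem hu h5
      rw [U_inf_T R, Subgroup.mem_bot] at h4
      have h5 : u * s = s * u := by
        calc u * s = (u * s * u⁻¹ * s⁻¹) * (s * u) := by group
          _ = s * u := by rw [h4, one_mul]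
      exact h5.symm
  refine ⟨w, ?_⟩
  have h2 : g = k * t := by
    have : g = k * (k⁻¹ * g) := by group
    rw [this, e, hu1, mul_one]
  rw [h2]
  have := hk.mul (rp_of_mem (cs := cs) (hN := R.nsys) ht)
  rwa [mul_one] at this

include D hTH in
/-- The elements of `G(S)` that normalise `T` are products of elements of `T` and of elements of the groups
`⟨X a, X (-a)⟩`, `±a ∈ S`, that normalise `T`. -/
theorem norm_G0 (hadd : ∀ x ∈ RS cs h X H, ∀ y ∈ RS cs h X H, IsRoot cs h (x + y) → x + y ∈ RS cs h X H)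
    {g : Y} (hg : g ∈ G0 cs h T X H) (hgT : cj g T = T) :
    g ∈ T ⊔ ⨆ a ∈ SS cs h X H, ((X a ⊔ X (-a)) ⊓ Subgroup.normalizer (T : Set Y)) := by
  obtain ⟨w, hw⟩ := exists_rp_of_norm R D (g := g)
    (sup_le T_le_GG (RGD.Sup_le fun x hx => X_le_GG hx.1) hg) hgT
  have h1 := mem_WS_of_rp R D hTH hadd hg hw
  set L : Subgroup Y := T ⊔ ⨆ a ∈ SS cs h X H, ((X a ⊔ X (-a)) ⊓ Subgroup.normalizer (T : Set Y)) with hL
  have h2 : ∀ v ∈ WS cs h X H, ∃ m ∈ L, Rp cs R.nsys v m := by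
    intro v hv
    induction hv using Subgroup.closure_induction with
    | mem s hs =>
      obtain ⟨a, ha, ha', hs⟩ := hs
      obtain ⟨y, hy, hy1⟩ : ∃ y ∈ X (-a), y ≠ 1 := by
        by_contra hcon
        push Not at hcon
        exact X_ne_bot R ha.1.neg ((Subgroup.eq_bot_iff_forall _).2 hcon)
      obtain ⟨-, -, -, -, m, hm, hm', -⟩ := exists_mu' R ha.1 hs hy hy1
      refine ⟨m, ?_, hm'⟩
      have h3 : (X a ⊔ X (-a)) ⊓ Subgroup.normalizer (T : Set Y) ≤ L :=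
        le_trans (le_iSup₂ (f := fun a (_ : a ∈ SS cs h X H) => (X a ⊔ X (-a)) ⊓ Subgroup.normalizer (T : Set Y))
          a ⟨ha, ha'⟩) le_sup_right
      exact h3 (Subgroup.mem_inf.2 ⟨hm, hm'.mem_normalizer⟩)
    | one => exact ⟨1, one_mem _, rp_one⟩
    | mul x y _ _ ih ih' =>
      obtain ⟨k, hk, hk'⟩ := ih
      obtain ⟨l, hl, hl'⟩ := ih'
      exact ⟨k * l, mul_mem hk hl, hk'.mul hl'⟩
    | inv x _ ih =>
      obtain ⟨k, hk, hk'⟩ := ih
      exact ⟨k⁻¹, inv_mem hk, hk'.inv⟩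
  obtain ⟨m, hm, hm'⟩ := h2 w h1
  have h3 : m⁻¹ * g ∈ T := hm'.unique hw
  have h4 : g = m * (m⁻¹ * g) := by group
  rw [h4]
  exact mul_mem hm (le_sup_left (a := T) h3)

end

end Cfsg.Agent.H460.OT
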