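import Mathlib
import Cfsg.Agent.H460.OT.Short

/-!
helper460 (S2539, part 5 (A)): sign vectors on closed sets of short roots.
-/

set_option autoImplicit false
set_option linter.unusedSectionVars false

namespace Cfsg.Agent.H460.OT.Short

open Cfsg Cfsg.Lie Cfsg.Lie.ChevalleyDatum
open Cfsg.Agent.ChevalleyStructure Cfsg.Agent.ChevalleyStructure.Elts Cfsg.Agent.H412.OT Cfsg.Agent.H428.OT
open Cfsg.Agent.Nodes.RGDChev
open Cfsg.Agent.ChevalleyStructure.RootCombBase (allLt allLt_spec anyLt anyLt_spec ieq ieq_spec)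

def oddN (k : ℕ) : Bool := Nat.beq (Nat.mod k 2) 1

/-- `pT = pr + 3` : `pr` is odd iff `pT` is even -/
def s1 (l P n : ℕ) (D : ChevalleyDatum) : Bool :=
  allLt (fun r => or (lT l r) (allLt (fun b => or (Nat.beq b r) (or (Nat.beq b (D.neg r)) (or (Nat.beq (pT P n r b) 3)
    (anyLt (fun a => and (oddN (pT P n a r)) (not (oddN (pT P n a b)))) n)))) n)) n

theorem s1_F : s1 lF pF 48 chevF4 = true := by decide +kernel
theorem s1_G : s1 lG pG 12 chevG2 = true := by decide +kernel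

theorem oddN_iff {k : ℕ} : oddN k = true ↔ k % 2 = 1 := bq

theorem sep_aux {D : ChevalleyDatum} {l P n : ℕ} (hP : chkP D P n = true) (hl : chkL D l n = true)
    (h : s1 l P n D = true) {r b : ℕ} (hr : r < n) (hb : b < n) (h1 : ¬ IsLong D r) (h2 : b ≠ r) (h3 : b ≠ D.neg r)
    (h4 : pr D r b ≠ 0) : ∃ a < n, Even (pr D a r) ∧ Odd (pr D a b) := by
  have hh := allLt_spec h r hr
  simp only [Bool.or_eq_true, l_spec hl hr] at hh
  have hh := allLt_spec (hh.resolve_left h1) b hb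
  simp only [Bool.or_eq_true, bq] at hh
  have h5 := p_spec hP hr hb
  rcases hh with hh | hh | hh | hh
  · exact absurd hh h2
  · exact absurd hh h3
  · exfalso; apply h4; rw [hh] at h5; omega
  · obtain ⟨a, ha, h6⟩ := anyLt_spec hh
    simp only [Bool.and_eq_true, Bool.not_eq_true', ← Bool.not_eq_true, oddN_iff] at h6
    have e1 := p_spec hP ha hr
    have e2 := p_spec hP ha hb
    refine ⟨a, ha, ?_, ?_⟩
    · rw [Int.even_iff]; omega
    · rw [Int.odd_iff]; omega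

/-- **(R5a)** -/
theorem sep_single {D : ChevalleyDatum} (hD : D = chevF4 ∨ D = chevG2) {r b : ℕ} (hr : r < D.nroots)
    (hb : b < D.nroots) (h1 : ¬ IsLong D r) (h2 : b ≠ r) (h3 : b ≠ D.neg r) (h4 : pr D r b ≠ 0) :
    ∃ a < D.nroots, Even (pr D a r) ∧ Odd (pr D a b) := by
  rcases hD with rfl | rfl
  · rw [nF] at hr hb ⊢
    exact sep_aux chkP_F4 chkL_F4 s1_F hr hb h1 h2 h3 h4
  · rw [nG] at hr hb ⊢
    exact sep_aux chkP_G2 chkL_G2 s1_G hr hb h1 h2 h3 h4

/-- **(R5b)** -/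
theorem two_signs {S : Set ℕ} (h : Sh chevF4 S) (ha : ∀ r ∈ S, chevF4.neg r ∉ S) {r₀ s₀ : ℕ} (hr₀ : r₀ ∈ S)
    (hs₀ : s₀ ∈ S) (hne : r₀ ≠ s₀) :
    ∃ a < chevF4.nroots, ∃ a' < chevF4.nroots, ∀ f : ℕ → ℕ, (∀ x ∈ S, f x ∈ S) → Set.InjOn f S →
      (∀ x ∈ S, ∀ y ∈ S, pr chevF4 (f x) (f y) = pr chevF4 x y) →
      ∃ x ∈ S, ¬ (Even (pr chevF4 a (f x)) ↔ Even (pr chevF4 a' x)) := by
  have hfin : S.Finite := (Set.finite_Iio chevF4.nroots).subset fun x hx => h.lt x hx
  have hsurj : ∀ f : ℕ → ℕ, (∀ x ∈ S, f x ∈ S) → Set.InjOn f S → ∀ y ∈ S, ∃ x ∈ S, f x = y := by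
    intro f hf hi y hy
    have h1 : f '' S = S := by
      refine Set.eq_of_subset_of_ncard_le ?_ ?_ hfin
      · rintro _ ⟨x, hx, rfl⟩; exact hf x hx
      · rw [Set.ncard_image_of_injOn hi]
    rw [← h1] at hy
    exact hy
  have ev2 : Even (2 : ℤ) := by decide
  have od1 : ¬ Even (1 : ℤ) := by decide
  have odm : ¬ Even (-1 : ℤ) := by decide
  have hlt := h.lt
  rcases anti_cases (Or.inl rfl) h ha ⟨r₀, hr₀⟩ with ⟨s, rfl⟩ | ⟨-, r, s, -, e1, e2, rfl⟩ |
    ⟨-, r, s, u, e1, e2, hu, rfl⟩ | ⟨-, r, s, t, -, -, -, e1, e1', e2, e2', e3, e3', rfl⟩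
  · rw [Set.mem_singleton_iff] at hr₀ hs₀
    exact absurd (hr₀.trans hs₀.symm) hne
  · have hr : r ∈ ({r, s} : Set ℕ) := by simp
    have hs : s ∈ ({r, s} : Set ℕ) := by simp
    obtain ⟨g, hg, g1, g2⟩ := long_of_pair (nF ▸ hlt r hr) (nF ▸ hlt s hs) (h.short r hr) (h.short s hs) e1
    refine ⟨r, hlt r hr, g, hg.1, fun f hf hi hp => ?_⟩
    obtain ⟨x, hx, hfx⟩ := hsurj f hf hi r hr
    refine ⟨x, hx, fun h1 => ?_⟩
    rw [hfx, H428.OT.pr_self inF (hlt r hr)] at h1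
    have h2 := h1.1 ev2
    have h3 : pr chevF4 g x = 1 := by
      rcases hx with rfl | rfl
      · exact g1
      · exact g2
    rw [h3] at h2
    exact od1 h2
  · have hr : r ∈ ({r, s, u} : Set ℕ) := by simp
    have hs : s ∈ ({r, s, u} : Set ℕ) := by simp
    have hu1 : u ∈ ({r, s, u} : Set ℕ) := by simp
    have f1 : pr chevF4 r u = 1 := by rw [pr_add inF hu, e1, H428.OT.pr_self inF (hlt r hr)]; norm_num
    have f2 : pr chevF4 s u = 1 := by rw [pr_add inF hu, e2, H428.OT.pr_self inF (hlt s hs)]; norm_num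
    have key : ∀ x ∈ ({r, s, u} : Set ℕ), pr chevF4 x u = 1 → pr chevF4 u x = 1 := by
      intro x hx hxu
      have hux : u ≠ x := by
        rintro rfl
        rw [H428.OT.pr_self inF (hlt u hu1)] at hxu; norm_num at hxu
      rcases h.pairF hx hu1 hux (fun e => ha x hx (e ▸ hu1)) with h4 | h4
      · exact h4.2
      · exact absurd (hxu.symm.trans h4.1) (by norm_num)
    have f3 := key r hr f1
    have f4 := key s hs f2
    refine ⟨u, hlt u hu1, r, hlt r hr, fun f hf hi hp => ?_⟩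
    obtain ⟨x, hx, hfx⟩ := hsurj f hf hi u hu1
    refine ⟨x, hx, fun h1 => ?_⟩
    rw [hfx, H428.OT.pr_self inF (hlt u hu1)] at h1
    have h2 := h1.1 ev2
    -- `x = r` is impossible
    have hsr : s ≠ r := by
      rintro rfl
      rw [H428.OT.pr_self inF (hlt s hs)] at e1; norm_num at e1
    rcases hx with rfl | rfl | rfl
    · have h3 := hp x hr s hs
      rw [hfx, e1] at h3
      have h4 : f s ∈ ({x, s, u} : Set ℕ) := hf s hs
      rcases h4 with h4 | h4 | h4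
      · rw [h4, f3] at h3; norm_num at h3
      · rw [h4, f4] at h3; norm_num at h3
      · have h5 : f s = u := h4
        rw [h5, H428.OT.pr_self inF (hlt u hu1)] at h3; norm_num at h3
    · rw [e1] at h2; exact odm h2
    · have h4 : pr chevF4 r x = 1 := f1
      rw [h4] at h2; exact od1 h2
  · have hr : r ∈ ({r, s, t} : Set ℕ) := by simp
    have hs : s ∈ ({r, s, t} : Set ℕ) := by simp
    have ht : t ∈ ({r, s, t} : Set ℕ) := by simp
    obtain ⟨g, hg, g1, g2, g3⟩ := long_of_triple (nF ▸ hlt r hr) (nF ▸ hlt s hs) (nF ▸ hlt t ht) (h.short r hr)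
      (h.short s hs) (h.short t ht) e1 e2 e3
    refine ⟨r, hlt r hr, g, hg.1, fun f hf hi hp => ?_⟩
    obtain ⟨x, hx, hfx⟩ := hsurj f hf hi r hr
    refine ⟨x, hx, fun h1 => ?_⟩
    rw [hfx, H428.OT.pr_self inF (hlt r hr)] at h1
    have h2 := h1.1 ev2
    have h3 : pr chevF4 g x = 1 := by
      rcases hx with rfl | rfl | rfl
      · exact g1
      · exact g2
      · exact g3
    rw [h3] at h2
    exact od1 h2

end Cfsg.Agent.H460.OT.Short
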