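import Mathlib
import Cfsg.Agent.H460.OT.ShortB

/-!
helper460 (S2539, part 5 (A)): parities of Cartan numbers, in the form used by helper876.
-/

set_option autoImplicit false
set_option linter.unusedSectionVars false

namespace Cfsg.Agent.H460.OT.Short

open Cfsg Cfsg.Lie Cfsg.Lie.ChevalleyDatum
open Cfsg.Agent.ChevalleyStructure Cfsg.Agent.ChevalleyStructure.Elts Cfsg.Agent.H412.OT Cfsg.Agent.H428.OT
open Cfsg.Agent.Nodes.RGDChev
open Cfsg.Agent.ChevalleyStructure.RootCombBase (allLt allLt_spec anyLt anyLt_spec ieq ieq_spec)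

/-- **(R5a)** -/
theorem sep_single' {D : ChevalleyDatum} (hD : D = chevF4 ∨ D = chevG2) {r b : ℕ} (hr : r < D.nroots)
    (hb : b < D.nroots) (h1 : ¬ IsLong D r) (h2 : b ≠ r) (h3 : b ≠ D.neg r) (h4 : pr D r b ≠ 0) :
    ∃ a < D.nroots, Even (pr D a r) ∧ ¬ Even (pr D a b) := by
  obtain ⟨a, ha, h5, h6⟩ := sep_single hD hr hb h1 h2 h3 h4
  exact ⟨a, ha, h5, Int.not_even_iff_odd.2 h6⟩

theorem od1 : ¬ Even (1 : ℤ) := by decide
theorem ev2 : Even (2 : ℤ) := by decide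

/-- **(R5b)** -/
theorem par_two {r s : ℕ} (hr : r < chevF4.nroots) (hs : s < chevF4.nroots) (h1 : ¬ IsLong chevF4 r)
    (h2 : ¬ IsLong chevF4 s) (e1 : pr chevF4 r s = 1) (e2 : pr chevF4 s r = 1) :
    (∃ a < chevF4.nroots, ¬ Even (pr chevF4 a r) ∧ Even (pr chevF4 a s)) ∧
      ∃ a < chevF4.nroots, ¬ Even (pr chevF4 a r) ∧ ¬ Even (pr chevF4 a s) := by
  refine ⟨⟨s, hs, ?_, ?_⟩, ?_⟩
  · rw [e2]; exact od1
  · rw [H428.OT.pr_self inF hs]; exact ev2
  · obtain ⟨g, hg, g1, g2⟩ := long_of_pair (nF ▸ hr) (nF ▸ hs) h1 h2 e1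
    exact ⟨g, hg.1, by rw [g1]; exact od1, by rw [g2]; exact od1⟩

/-- three short roots mutually at 60 degrees are separated -/
def s2 : Bool := allLt (fun r => or (lT lF r) (allLt (fun s => or (lT lF s) (or (not (Nat.beq (pT pF 48 r s) 4))
  (allLt (fun t => or (lT lF t) (or (not (Nat.beq (pT pF 48 r t) 4)) (or (not (Nat.beq (pT pF 48 s t) 4))
    (anyLt (fun a => and (not (oddN (pT pF 48 a r))) (and (oddN (pT pF 48 a s)) (oddN (pT pF 48 a t)))) 48)))) 48))) 48)) 48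

theorem s2_ok : s2 = true := by decide +kernel

/-- **(R5c)** -/
theorem par_three {r s t : ℕ} (hr : r < chevF4.nroots) (hs : s < chevF4.nroots) (ht : t < chevF4.nroots)
    (h1 : ¬ IsLong chevF4 r) (h2 : ¬ IsLong chevF4 s) (h3 : ¬ IsLong chevF4 t) (e1 : pr chevF4 r s = 1)
    (e2 : pr chevF4 r t = 1) (e3 : pr chevF4 s t = 1) :
    (∃ a < chevF4.nroots, ¬ Even (pr chevF4 a r) ∧ Even (pr chevF4 a s) ∧ Even (pr chevF4 a t)) ∧
      ∃ a < chevF4.nroots, ¬ Even (pr chevF4 a r) ∧ ¬ Even (pr chevF4 a s) := by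
  have hr' : r < 48 := nF ▸ hr
  have hs' : s < 48 := nF ▸ hs
  have ht' : t < 48 := nF ▸ ht
  constructor
  · have hh := allLt_spec s2_ok r hr'
    simp only [Bool.or_eq_true, l_spec chkL_F4 hr'] at hh
    have hh := allLt_spec (hh.resolve_left h1) s hs'
    simp only [Bool.or_eq_true, l_spec chkL_F4 hs', Bool.not_eq_true', ← Bool.not_eq_true, bq] at hh
    have hh := allLt_spec ((hh.resolve_left h2).resolve_left (not_not.2 ((pT_of hr' hs').2 e1))) t ht'
    simp only [Bool.or_eq_true, l_spec chkL_F4 ht', Bool.not_eq_true', ← Bool.not_eq_true, bq] at hh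
    have hh := (((hh.resolve_left h3).resolve_left (not_not.2 ((pT_of hr' ht').2 e2))).resolve_left
      (not_not.2 ((pT_of hs' ht').2 e3)))
    obtain ⟨a, ha, h6⟩ := anyLt_spec hh
    simp only [Bool.and_eq_true, Bool.not_eq_true', ← Bool.not_eq_true, oddN_iff] at h6
    have q1 := p_spec chkP_F4 ha hr'
    have q2 := p_spec chkP_F4 ha hs'
    have q3 := p_spec chkP_F4 ha ht'
    refine ⟨a, by rw [nF]; exact ha, ?_, ?_, ?_⟩
    · rw [Int.not_even_iff]; omega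
    · rw [Int.even_iff]; omega
    · rw [Int.even_iff]; omega
  · obtain ⟨g, hg, g1, g2, -⟩ := long_of_triple hr' hs' ht' h1 h2 h3 e1 e2 e3
    exact ⟨g, hg.1, by rw [g1]; exact od1, by rw [g2]; exact od1⟩

/-- **(R5d)** -/
theorem par_sum {r s u : ℕ} (h1 : ¬ IsLong chevF4 r) (h2 : ¬ IsLong chevF4 s) (h3 : ¬ IsLong chevF4 u)
    (e1 : pr chevF4 r s = -1) (e2 : pr chevF4 s r = -1) (hu : chevF4.chainRoot r s 1 = some u) :
    (∃ a < chevF4.nroots, ¬ Even (pr chevF4 a u)) ∧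
      (∃ a < chevF4.nroots, Even (pr chevF4 a u) ∧ ¬ Even (pr chevF4 a r)) ∧ pr chevF4 r u = 1 ∧
      pr chevF4 s u = 1 ∧ pr chevF4 u r = 1 ∧ pr chevF4 u s = 1 := by
  obtain ⟨lr, ls, lu⟩ := chainRoot_lt inF hu
  have f1 : pr chevF4 r u = 1 := by rw [pr_add inF hu, e1, H428.OT.pr_self inF lr]; norm_num
  have f2 : pr chevF4 s u = 1 := by rw [pr_add inF hu, e2, H428.OT.pr_self inF ls]; norm_num
  have key : ∀ x, x < chevF4.nroots → ¬ IsLong chevF4 x → pr chevF4 x u = 1 → pr chevF4 u x = 1 := by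
    intro x lx hx hxu
    have h4 : u ≠ x := by
      rintro rfl
      rw [H428.OT.pr_self inF lu] at hxu; norm_num at hxu
    have h5 : u ≠ chevF4.neg x := by
      rintro rfl
      rw [H428.OT.pr_neg inF lx] at hxu; norm_num at hxu
    rcases pairF (nF ▸ lx) (nF ▸ lu) hx h3 h4 h5 with h6 | h6 | h6
    · exact h6.2
    · exact absurd (hxu.symm.trans h6.1) (by norm_num)
    · -- `⟨u, x^∨⟩ = 1` excludes a long sum
      obtain ⟨v, hv, hl⟩ := h6
      exfalso
      have h7 := pr_add inF hv x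
      rw [H428.OT.pr_self inF lx, hxu] at h7
      have h8 := H428.OT.abs_pr_le_two (D := chevF4) (by simp) lx hl.1
      rw [h7] at h8
      norm_num at h8
  have f3 := key r lr h1 f1
  have f4 := key s ls h2 f2
  exact ⟨⟨r, lr, by rw [f1]; exact od1⟩, ⟨u, lu, by rw [H428.OT.pr_self inF lu]; exact ev2, by rw [f3]; exact od1⟩,
    f1, f2, f3, f4⟩

def s3 (P n : ℕ) : Bool := allLt (fun r => anyLt (fun a => not (oddN (pT P n a r))) n) n

theorem s3_F : s3 pF 48 = true := by decide +kernel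
theorem s3_G : s3 pG 12 = true := by decide +kernel

/-- **(R5e)** -/
theorem par_one {D : ChevalleyDatum} (hD : D = chevF4 ∨ D = chevG2) {r : ℕ} (hr : r < D.nroots) :
    ∃ a < D.nroots, ¬ Even (pr D a r) := by
  rcases hD with rfl | rfl
  · rw [nF] at hr ⊢
    obtain ⟨a, ha, h⟩ := anyLt_spec (allLt_spec s3_F r hr)
    simp only [Bool.not_eq_true', ← Bool.not_eq_true, oddN_iff] at h
    have q := p_spec chkP_F4 ha hr
    exact ⟨a, ha, by rw [Int.not_even_iff]; omega⟩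
  · rw [nG] at hr ⊢
    obtain ⟨a, ha, h⟩ := anyLt_spec (allLt_spec s3_G r hr)
    simp only [Bool.not_eq_true', ← Bool.not_eq_true, oddN_iff] at h
    have q := p_spec chkP_G2 ha hr
    exact ⟨a, ha, by rw [Int.not_even_iff]; omega⟩

/-- **(R6b)** -/
theorem odd_single {D : ChevalleyDatum} (hD : D = chevF4 ∨ D = chevG2) {r : ℕ} (hr : r < D.nroots) :
    ∃ a < D.nroots, Odd (pr D a r) := by
  obtain ⟨a, ha, h⟩ := par_one hD hr
  exact ⟨a, ha, Int.not_even_iff_odd.1 h⟩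

/-- **(R6a)** -/
theorem two_signs' {S : Set ℕ} (h : Sh chevF4 S) (ha : ∀ r ∈ S, chevF4.neg r ∉ S) {r₀ s₀ : ℕ} (hr₀ : r₀ ∈ S)
    (hs₀ : s₀ ∈ S) (hne : r₀ ≠ s₀) :
    ∃ a < chevF4.nroots, (∃ x ∈ S, Odd (pr chevF4 a x)) ∧ ∃ a' < chevF4.nroots, (∃ x ∈ S, Odd (pr chevF4 a' x)) ∧
      ∀ f : ℕ → ℕ, (∀ x ∈ S, f x ∈ S) → Set.InjOn f S →
      (∀ x ∈ S, ∀ y ∈ S, pr chevF4 (f x) (f y) = pr chevF4 x y) →
      ∃ x ∈ S, ¬ (Even (pr chevF4 a (f x)) ↔ Even (pr chevF4 a' x)) := by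
  have hfin : S.Finite := (Set.finite_Iio chevF4.nroots).subset fun x hx => h.lt x hx
  have hsurj : ∀ f : ℕ → ℕ, (∀ x ∈ S, f x ∈ S) → Set.InjOn f S → ∀ y ∈ S, ∃ x ∈ S, f x = y := by
    intro f hf hi y hy
    have h1 : f '' S = S := by
      refine Set.eq_of_subset_of_ncard_le ?_ ?_ hfin
      · rintro _ ⟨x, hx, rfl⟩; exact hf x hx
      · rw [Set.ncard_image_of_injOn hi]
    rw [← h1] at hy
    exact hy
  have ev2 : Even (2 : ℤ) := by decide
  have od1 : ¬ Even (1 : ℤ) := by decide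
  have odm : ¬ Even (-1 : ℤ) := by decide
  have hlt := h.lt
  rcases anti_cases (Or.inl rfl) h ha ⟨r₀, hr₀⟩ with ⟨s, rfl⟩ | ⟨-, r, s, -, e1, e2, rfl⟩ |
    ⟨-, r, s, u, e1, e2, hu, rfl⟩ | ⟨-, r, s, t, -, -, -, e1, e1', e2, e2', e3, e3', rfl⟩
  · rw [Set.mem_singleton_iff] at hr₀ hs₀
    exact absurd (hr₀.trans hs₀.symm) hne
  · have hr : r ∈ ({r, s} : Set ℕ) := by simp
    have hs : s ∈ ({r, s} : Set ℕ) := by simp
    obtain ⟨g, hg, g1, g2⟩ := long_of_pair (nF ▸ hlt r hr) (nF ▸ hlt s hs) (h.short r hr) (h.short s hs) e1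
    refine ⟨r, hlt r hr, ⟨s, hs, by rw [e1]; decide⟩, g, hg.1, ⟨r, hr, by rw [g1]; decide⟩, fun f hf hi hp => ?_⟩
    obtain ⟨x, hx, hfx⟩ := hsurj f hf hi r hr
    refine ⟨x, hx, fun h1 => ?_⟩
    rw [hfx, H428.OT.pr_self inF (hlt r hr)] at h1
    have h2 := h1.1 ev2
    have h3 : pr chevF4 g x = 1 := by
      rcases hx with rfl | rfl
      · exact g1
      · exact g2
    rw [h3] at h2
    exact od1 h2
  · have hr : r ∈ ({r, s, u} : Set ℕ) := by simp
    have hs : s ∈ ({r, s, u} : Set ℕ) := by simp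
    have hu1 : u ∈ ({r, s, u} : Set ℕ) := by simp
    have f1 : pr chevF4 r u = 1 := by rw [pr_add inF hu, e1, H428.OT.pr_self inF (hlt r hr)]; norm_num
    have f2 : pr chevF4 s u = 1 := by rw [pr_add inF hu, e2, H428.OT.pr_self inF (hlt s hs)]; norm_num
    have key : ∀ x ∈ ({r, s, u} : Set ℕ), pr chevF4 x u = 1 → pr chevF4 u x = 1 := by
      intro x hx hxu
      have hux : u ≠ x := by
        rintro rfl
        rw [H428.OT.pr_self inF (hlt u hu1)] at hxu; norm_num at hxu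
      rcases h.pairF hx hu1 hux (fun e => ha x hx (e ▸ hu1)) with h4 | h4
      · exact h4.2
      · exact absurd (hxu.symm.trans h4.1) (by norm_num)
    have f3 := key r hr f1
    have f4 := key s hs f2
    refine ⟨u, hlt u hu1, ⟨r, hr, by rw [f3]; decide⟩, r, hlt r hr, ⟨s, hs, by rw [e1]; decide⟩,
      fun f hf hi hp => ?_⟩
    obtain ⟨x, hx, hfx⟩ := hsurj f hf hi u hu1
    refine ⟨x, hx, fun h1 => ?_⟩
    rw [hfx, H428.OT.pr_self inF (hlt u hu1)] at h1
    have h2 := h1.1 ev2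
    -- `x = r` is impossible
    have hsr : s ≠ r := by
      rintro rfl
      rw [H428.OT.pr_self inF (hlt s hs)] at e1; norm_num at e1
    rcases hx with rfl | rfl | rfl
    · have h3 := hp x hr s hs
      rw [hfx, e1] at h3
      have h4 : f s ∈ ({x, s, u} : Set ℕ) := hf s hs
      rcases h4 with h4 | h4 | h4
      · rw [h4, f3] at h3; norm_num at h3
      · rw [h4, f4] at h3; norm_num at h3
      · have h5 : f s = u := h4
        rw [h5, H428.OT.pr_self inF (hlt u hu1)] at h3; norm_num at h3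
    · rw [e1] at h2; exact odm h2
    · have h4 : pr chevF4 r x = 1 := f1
      rw [h4] at h2; exact od1 h2
  · have hr : r ∈ ({r, s, t} : Set ℕ) := by simp
    have hs : s ∈ ({r, s, t} : Set ℕ) := by simp
    have ht : t ∈ ({r, s, t} : Set ℕ) := by simp
    obtain ⟨g, hg, g1, g2, g3⟩ := long_of_triple (nF ▸ hlt r hr) (nF ▸ hlt s hs) (nF ▸ hlt t ht) (h.short r hr)
      (h.short s hs) (h.short t ht) e1 e2 e3
    refine ⟨r, hlt r hr, ⟨s, hs, by rw [e1]; decide⟩, g, hg.1, ⟨r, hr, by rw [g1]; decide⟩, fun f hf hi hp => ?_⟩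
    obtain ⟨x, hx, hfx⟩ := hsurj f hf hi r hr
    refine ⟨x, hx, fun h1 => ?_⟩
    rw [hfx, H428.OT.pr_self inF (hlt r hr)] at h1
    have h2 := h1.1 ev2
    have h3 : pr chevF4 g x = 1 := by
      rcases hx with rfl | rfl | rfl
      · exact g1
      · exact g2
      · exact g3
    rw [h3] at h2
    exact od1 h2

end Cfsg.Agent.H460.OT.Short
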